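import Cfsg.Agent.H129.Q2.Base
import Cfsg.Agent.H378.Regular
import Cfsg.Agent.S1067

/-!
# The 2-part of the centralisers of the elements of odd prime order in `³D₄(2)` (S5745, own rows; helper129)

* `fact_td4` : `|C(y)|_2 ≤ 2 ^ 3` for `y` of odd prime order in `³D₄(2)`.
-/

set_option autoImplicit false
set_option linter.unusedSectionVars false

namespace Cfsg.Agent.H129.Q2

open CoxeterSystem Cfsg Cfsg.Lie Cfsg.Lie.ChevalleyDatum
open Cfsg.Agent.ChevalleyStructure Cfsg.Agent.ChevalleyStructure.Elts Cfsg.Agent.ChevalleyStructure.CoxeterGeom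
  Cfsg.Agent.ChevalleyStructure.CoxeterGeomTypes Cfsg.Agent.ChevalleyStructure.NPerm
open Cfsg.Agent.Tits.Roots Cfsg.Agent.Tits.Core Cfsg.Agent.Nodes Cfsg.Agent.Nodes.Reps Cfsg.Agent.Nodes.BNOf
  Cfsg.Agent.Nodes.RGDChev Cfsg.Agent.Nodes.Bruhat
open Cfsg.Agent.KFacts.RgdField Cfsg.Agent.KFacts.RgdChevCoord Cfsg.Agent.BpExc.TorCent Cfsg.Agent.BpExc.TorChev
open Cfsg.Agent.H129.TorusChar Cfsg.Agent.H316.U6 Cfsg.Agent.H469.Exc
open Cfsg.Agent.H720.TwFr (permE rho4)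

/-! ### the minuscule coweights -/

/-- the three orbits of minuscule coweights, as functionals on the root lattice -/
def OmL : Fin 3 → List (Fin 4 → ℤ) :=
  ![[![-1, 0, 0, 0], ![-1, 1, 0, 0], ![0, -1, 1, 1], ![0, 0, -1, 1], ![0, 0, 1, -1], ![0, 1, -1, -1], ![1, -1, 0, 0],
      ![1, 0, 0, 0]],
    [![-1, 0, 0, 1], ![-1, 1, 0, -1], ![0, -1, 1, 0], ![0, 0, -1, 0], ![0, 0, 1, 0], ![0, 1, -1, 0], ![1, -1, 0, 1],
      ![1, 0, 0, -1]],
    [![-1, 0, 1, 0], ![-1, 1, -1, 0], ![0, -1, 0, 1], ![0, 0, 0, -1], ![0, 0, 0, 1], ![0, 1, 0, -1], ![1, -1, 1, 0],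
      ![1, 0, -1, 0]]]

def nxt : Fin 3 → Fin 3 := ![2, 0, 1]

theorem om_refl : ∀ j : Fin 3, ∀ ω ∈ OmL j, ∀ i : Fin 4, (fun k => ω k - ω i * cartanOf chevD4 4 i k) ∈ OmL j := by
  decide +kernel

theorem om_gam : ∀ j : Fin 3, ∀ ω ∈ OmL j, (fun k => ω (rho4 k)) ∈ OmL (nxt j) := by
  decide +kernel

/-- the functional -/
def Fn (ω x : Fin 4 → ℤ) : ℤ := ∑ i, ω i * x i

theorem Fn_refl (ω x : Fin 4 → ℤ) (i : Fin 4) :
    Fn ω (x - pairing (cartanOf chevD4 4) i x • sr i) = Fn (fun k => ω k - ω i * cartanOf chevD4 4 i k) x := by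
  have h1 : Fn ω (x - pairing (cartanOf chevD4 4) i x • sr i) =
      Fn ω x - pairing (cartanOf chevD4 4) i x * ω i := by
    have h2 : ∑ k, ω k * sr (I := Fin 4) i k = ω i := by
      rw [Finset.sum_eq_single i]
      · rw [sr_self, mul_one]
      · intro j _ hj
        rw [sr_ne hj, mul_zero]
      · intro hi
        exact absurd (Finset.mem_univ i) hi
    unfold Fn
    rw [← h2, Finset.mul_sum, ← Finset.sum_sub_distrib]
    refine Finset.sum_congr rfl fun k _ => ?_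
    rw [Pi.sub_apply, Pi.smul_apply, smul_eq_mul]
    ring
  rw [h1]
  unfold Fn pairing
  rw [Finset.sum_mul, ← Finset.sum_sub_distrib]
  refine Finset.sum_congr rfl fun k _ => ?_
  ring

theorem Fn_rep (hp : IsType chevD4 4 coxeterD4) (w : coxeterD4.Group) (j : Fin 3) :
    ∀ ω ∈ OmL j, ∃ ω' ∈ OmL j, ∀ x, Fn ω (rep coxeterD4.toCoxeterSystem hp.isCartan w x) = Fn ω' x := by
  obtain ⟨L, rfl⟩ := coxeterD4.toCoxeterSystem.wordProd_surjective w
  induction L with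
  | nil =>
    intro ω hω
    refine ⟨ω, hω, fun x => ?_⟩
    rw [wordProd_nil, map_one, Module.End.one_apply]
  | cons i L ih =>
    intro ω hω
    obtain ⟨ω', hω', h1⟩ := ih _ (om_refl j ω hω i)
    refine ⟨ω', hω', fun x => ?_⟩
    rw [wordProd_cons, rep_mul_apply, rep_simple_eq, Fn_refl, h1]

theorem Fn_gam (ω x : Fin 4 → ℤ) : Fn ω (permE rho4 x) = Fn (fun k => ω (rho4 k)) x := by
  show ∑ i, ω i * x (rho4.symm i) = ∑ k, ω (rho4 k) * x k
  rw [← Equiv.sum_comp rho4 (fun i => ω i * x (rho4.symm i))]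
  refine Finset.sum_congr rfl fun k _ => ?_
  rw [Equiv.symm_apply_apply]

/-! ### the check -/

def tabD : List (ℕ × ℕ × ℕ × ℕ) :=
  [(0,0,0,1), (0,0,1,0), (0,1,0,0), (0,1,0,1), (0,1,1,0), (0,1,1,1), (1,0,0,0), (1,1,0,0), (1,1,0,1), (1,1,1,0),
   (1,1,1,1), (1,2,1,1)]

/-- the coweights, `2` stands for `-1` -/
def omN : List (ℕ × ℕ × ℕ × ℕ) :=
  [(2,0,0,0), (2,1,0,0), (0,2,1,1), (0,0,2,1), (0,0,1,2), (0,1,2,2), (1,2,0,0), (1,0,0,0),
   (2,0,0,1), (2,1,0,2), (0,2,1,0), (0,0,2,0), (0,0,1,0), (0,1,2,0), (1,2,0,1), (1,0,0,2),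
   (2,0,1,0), (2,1,2,0), (0,2,0,1), (0,0,0,2), (0,0,0,1), (0,1,0,2), (1,2,1,0), (1,0,2,0)]

def dc (r e : ℕ) : ℕ := if e = 2 then r - 1 else e

def dz (e : ℕ) : ℤ := if e = 2 then -1 else e

theorem dc_dz {r e : ℕ} (hr : 1 ≤ r) : (r : ℤ) ∣ (dc r e : ℤ) - dz e := by
  unfold dc dz
  split_ifs
  · refine ⟨1, ?_⟩
    push_cast [hr]
    ring
  · rw [sub_self]
    exact dvd_zero _

theorem omN_ok : ∀ b ∈ omN, ∃ j : Fin 3, ![dz b.1, dz b.2.1, dz b.2.2.1, dz b.2.2.2] ∈ OmL j := by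
  decide +kernel

def inO (r c0 c1 c2 c3 : ℕ) : Bool :=
  omN.any fun b => Nat.beq c0 (dc r b.1) && (Nat.beq c1 (dc r b.2.1) && (Nat.beq c2 (dc r b.2.2.1) &&
    Nat.beq c3 (dc r b.2.2.2)))

def PD (r c0 c1 c2 c3 : ℕ) : Bool := Nat.ble (cnt r c0 c1 c2 c3 tabD) 3 || inO r c0 c1 c2 c3

def all4 (r : ℕ) (P : ℕ → ℕ → ℕ → ℕ → Bool) : Bool :=
  ((List.range r).all fun c1 => (List.range r).all fun c2 => (List.range r).all fun c3 => P 1 c1 c2 c3) &&
  ((List.range r).all fun c2 => (List.range r).all fun c3 => P 0 1 c2 c3) &&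
  ((List.range r).all fun c3 => P 0 0 1 c3) && P 0 0 0 1

theorem all4_spec {r : ℕ} {P : ℕ → ℕ → ℕ → ℕ → Bool} (h : all4 r P = true) {c : Fin 4 → ℕ} (hc : ∀ i, c i < r)
    {i₀ : Fin 4} (h1 : c i₀ = 1) (h0 : ∀ j < i₀, c j = 0) : P (c 0) (c 1) (c 2) (c 3) = true := by
  simp only [all4, Bool.and_eq_true, List.all_eq_true, List.mem_range] at h
  obtain ⟨⟨⟨h2, h3⟩, h4⟩, h5⟩ := h
  have h6 : ∀ i : Fin 4, i = 0 ∨ i = 1 ∨ i = 2 ∨ i = 3 := by decide
  obtain rfl | rfl | rfl | rfl := h6 i₀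
  · rw [h1]
    exact h2 _ (hc 1) _ (hc 2) _ (hc 3)
  · rw [h1, h0 0 (by decide)]
    exact h3 _ (hc 2) _ (hc 3)
  · rw [h1, h0 0 (by decide), h0 1 (by decide)]
    exact h4 _ (hc 3)
  · rw [h1, h0 0 (by decide), h0 1 (by decide), h0 2 (by decide)]
    exact h5

theorem chkD3 : all4 3 (PD 3) = true := by decide +kernel
theorem chkD7 : all4 7 (PD 7) = true := by decide +kernel
theorem chkD13 : all4 13 (PD 13) = true := by decide +kernel

theorem chkE : ∀ r ∈ [3, 7, 13], ∀ j : Fin 3, ∀ ω ∈ OmL j, ∀ ω' ∈ OmL (nxt j),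
    ¬ ∀ i, ((r : ℕ) : ℤ) ∣ ω' i - 2 * ω i := by decide +kernel

theorem tabD_ok : ∀ y < 24, (∀ i : Fin 4, 0 ≤ vec chevD4 4 y i) → ∃ b ∈ tabD,
    vec chevD4 4 y = toV b := by decide +kernel

theorem exists_om {r : ℕ} (hr : 1 ≤ r) {c : Fin 4 → ℕ} (h : inO r (c 0) (c 1) (c 2) (c 3) = true) :
    ∃ j : Fin 3, ∃ ω ∈ OmL j, ∀ i, (r : ℤ) ∣ (c i : ℤ) - ω i := by
  unfold inO at h
  rw [List.any_eq_true] at h
  obtain ⟨b, hb, h⟩ := h
  simp only [Bool.and_eq_true] at h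
  obtain ⟨h0, h1, h2, h3⟩ := h
  obtain ⟨j, hj⟩ := omN_ok b hb
  refine ⟨j, _, hj, ?_⟩
  have h6 : ∀ i : Fin 4, i = 0 ∨ i = 1 ∨ i = 2 ∨ i = 3 := by decide
  intro i
  obtain rfl | rfl | rfl | rfl := h6 i
  · rw [Nat.eq_of_beq_eq_true h0]; exact dc_dz hr
  · rw [Nat.eq_of_beq_eq_true h1]; exact dc_dz hr
  · rw [Nat.eq_of_beq_eq_true h2]; exact dc_dz hr
  · rw [Nat.eq_of_beq_eq_true h3]; exact dc_dz hr

/-- `|³D₄(2)|` -/
theorem card_td4_two {F : Type} [Field F] [Fintype F] (hF : Fintype.card F = 8) :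
    Nat.card ↥(twistedD4 F 2) = 2 ^ 12 * 3 ^ 4 * 7 ^ 2 * 13 := by
  rw [Cfsg.Agent.S1067.result Nat.prime_two.isPrimePow (by rw [hF]; norm_num)]
  norm_num

theorem fact_td4 {T : Type*} [Group T] [Finite T] {F : Type} [Field F] [Fintype F] (hF : Fintype.card F = 8)
    (E : T ≃* ↥(Cfsg.Lie.twistedD4 F 2)) {y : T} {r : ℕ} (hr : r.Prime) (h2 : r ≠ 2) (hy : y ^ r = 1) (h1 : y ≠ 1) :
    (Nat.card ↥(Subgroup.centralizer {y})).factorization 2 ≤ 3 := by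
  have : CharP F 2 := by
    obtain ⟨p, hp⟩ := CharP.exists F
    have hpp : Fact p.Prime := ⟨CharP.char_is_prime F p⟩
    obtain ⟨n, hn⟩ := FiniteField.card F p
    rw [hF] at hn
    have h4 : p = 2 := by
      have h5 : p ∣ 2 ^ 3 := by
        rw [show (2 : ℕ) ^ 3 = 8 from rfl, hn.2]
        exact dvd_pow_self p n.pos.ne'
      exact (Nat.prime_dvd_prime_iff_eq hpp.out Nat.prime_two).1 (hpp.out.dvd_of_dvd_pow h5)
    rwa [h4] at hp
  have : Fact (Nat.Prime 2) := ⟨Nat.prime_two⟩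
  have hrf : Fact r.Prime := ⟨hr⟩
  obtain ⟨m0, -, hmg⟩ := mdata_twD4' (r := 2) (q := 2) (K := F) Nat.prime_two.isPrimePow (by rw [hF]; norm_num)
  let m := m0.congr E
  have hmg' : m.g = permE rho4 := hmg
  have hs := Cfsg.Agent.H349.K6.setup m
  have he : m.e = 1 := Nat.pow_right_injective (le_refl 2) (m.hq.trans (pow_one 2).symm)
  have hk := locFin 2
  have hp : IsType chevD4 4 coxeterD4 := Nodes.RGDTwD4.hp
  -- `r` is one of three primes
  have hrd : r ∈ [3, 7, 13] := by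
    have h3 : r ∣ Nat.card T := by
      rw [← orderOf_eq_prime hy h1]
      exact orderOf_dvd_natCard y
    rw [Nat.card_congr E.toEquiv, card_td4_two hF] at h3
    have h4 : ∀ {a : ℕ}, a.Prime → ∀ {n : ℕ}, r ∣ a ^ n → r = a := fun ha _ h =>
      (Nat.prime_dvd_prime_iff_eq hr ha).1 (hr.dvd_of_dvd_pow h)
    rcases hr.dvd_mul.1 h3 with h3 | h3
    · rcases hr.dvd_mul.1 h3 with h3 | h3
      · rcases hr.dvd_mul.1 h3 with h3 | h3
        · exact absurd (h4 Nat.prime_two h3) h2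
        · rw [h4 Nat.prime_three h3]; decide
      · rw [h4 (by norm_num) h3]; decide
    · rw [(Nat.prime_dvd_prime_iff_eq hr (by norm_num)).1 h3]; decide
  obtain ⟨z, hz⟩ := Cfsg.Agent.BpExc.TorAll.exists_toral' Nodes.RGDTwD4.hp 2 hr h2 (y := m.ι y)
    (by rw [← map_pow, hy, map_one])
  set t := z⁻¹ * m.ι y * z with ht
  have h3 := Cfsg.Agent.H461.E2.Cent.card_centralizer hk hs hr h2 hy (z := z) (t := t) rfl hz
  rw [h3, he, one_mul]
  have htr : t ^ r = 1 := by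
    have e1 : t = z⁻¹ * m.ι y * z⁻¹⁻¹ := by rw [inv_inv]
    rw [e1, conj_pow, ← map_pow, hy, map_one, mul_one, inv_inv, inv_mul_cancel]
  have ht1 : t ≠ 1 := by
    intro h
    apply h1
    apply m.inj
    rw [map_one]
    have e1 : m.ι y = z * t * z⁻¹ := by rw [ht]; group
    rw [e1, h, mul_one, mul_inv_cancel]
  obtain ⟨c, i₀, hc, hc1, hc0, hcX⟩ := exists_coef Nodes.RGDTwD4.hp hz hr htr ht1
  refine (ncard_le (r := r) (L := tabD) (c := c) ?_).trans ?_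
  · rintro a ⟨ha, hca, h0⟩
    constructor
    · obtain ⟨s, hs', rfl⟩ := (isRoot_iff Nodes.RGDTwD4.hp _ a).1 ha
      exact tabD_ok s hs' h0
    · rw [← hcX, cX_root Nodes.RGDTwD4.hp _ hz ha]
      exact hca
  -- the Frobenius automorphism
  have := finite_W Nodes.RGDTwD4.hp coxeterD4.toCoxeterSystem
  obtain ⟨w, hw⟩ : ∃ w : coxeterD4.Group, ∀ x,
      cX Nodes.RGDTwD4.hp t (rep coxeterD4.toCoxeterSystem Nodes.RGDTwD4.hp.isCartan w (permE rho4 x)) =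
        cX Nodes.RGDTwD4.hp t x ^ 2 := by
    have hσt : m.σ t ∈ TT chevD4 (KK 2) := (m.fr.tor t).2 hz
    have e1 : z⁻¹ * m.σ z * m.σ t = t * (z⁻¹ * m.σ z) := by
      have e2 : m.σ t = (m.σ z)⁻¹ * m.ι y * m.σ z := by
        rw [ht, map_mul, map_mul, map_inv, m.fix]
      rw [e2, ht]
      group
    obtain ⟨-, -, w, g, hg, hgs, -⟩ := Cfsg.Agent.H378.Regular.exists_form' Nodes.RGDTwD4.hp
      coxeterD4.toCoxeterSystem hk 2 hσt hz e1
    refine ⟨w, fun x => ?_⟩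
    have h4 := cX_rp Nodes.RGDTwD4.hp coxeterD4.toCoxeterSystem hk 2 hg hσt (permE rho4 x)
    have h5 : g * m.σ t * g⁻¹ = t := by rw [hgs, mul_inv_cancel_right]
    rw [h5] at h4
    have h6 := cX_sigma Nodes.RGDTwD4.hp coxeterD4.toCoxeterSystem m.frob m.fr hz x
    rw [hmg', he, pow_one] at h6
    rw [h4, h6]
  by_contra hcon
  have hP : PD r (c 0) (c 1) (c 2) (c 3) = true := by
    simp only [List.mem_cons, List.not_mem_nil, or_false] at hrd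
    rcases hrd with rfl | rfl | rfl
    · exact all4_spec chkD3 hc hc1 hc0
    · exact all4_spec chkD7 hc hc1 hc0
    · exact all4_spec chkD13 hc hc1 hc0
  unfold PD at hP
  rw [Bool.or_eq_true] at hP
  rcases hP with hP | hP
  · exact hcon (Nat.le_of_ble_eq_true hP)
  obtain ⟨j, ω, hω, hcω⟩ := exists_om hr.one_lt.le hP
  obtain ⟨ω', hω', h4⟩ := Fn_rep Nodes.RGDTwD4.hp w j ω hω
  refine chkE r hrd j ω hω _ (om_gam j ω' hω') fun i => ?_
  -- modulo `r`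
  have h5 : ∀ x : Fin 4 → ℤ, (r : ℤ) ∣ (∑ i, (c i : ℤ) * x i) - Fn ω x := by
    intro x
    unfold Fn
    rw [← Finset.sum_sub_distrib]
    refine Finset.dvd_sum fun i _ => ?_
    rw [← sub_mul]
    exact (hcω i).mul_right _
  have h6 : ∀ x : Fin 4 → ℤ, (r : ℤ) ∣ ∑ i, (c i : ℤ) *
      (rep coxeterD4.toCoxeterSystem Nodes.RGDTwD4.hp.isCartan w (permE rho4 x) - (x + x)) i := by
    intro x
    rw [← hcX]
    have hM := isMC_cX Nodes.RGDTwD4.hp hz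
    have h7 := hM.add (rep coxeterD4.toCoxeterSystem Nodes.RGDTwD4.hp.isCartan w (permE rho4 x) - (x + x)) (x + x)
    rw [sub_add_cancel, hw, hM.add x x, ← sq] at h7
    have h8 : cX Nodes.RGDTwD4.hp t x ^ 2 ≠ 0 := pow_ne_zero 2 (hM.ne_zero x)
    exact (mul_eq_right₀ h8).1 h7.symm
  have h7 := h6 (sr i)
  have h8 := (Int.dvd_iff_dvd_of_dvd_sub (h5 (rep coxeterD4.toCoxeterSystem Nodes.RGDTwD4.hp.isCartan w
    (permE rho4 (sr i)) - (sr i + sr i)))).1 h7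
  have hF1 : ∀ a b : Fin 4 → ℤ, Fn ω (a - b) = Fn ω a - Fn ω b := by
    intro a b
    unfold Fn
    rw [← Finset.sum_sub_distrib]
    refine Finset.sum_congr rfl fun k _ => ?_
    rw [Pi.sub_apply, mul_sub]
  have hF2 : ∀ (ν : Fin 4 → ℤ) (i : Fin 4), Fn ν (sr i) = ν i := by
    intro ν i
    unfold Fn
    rw [Finset.sum_eq_single i]
    · rw [sr_self, mul_one]
    · intro j _ hj
      rw [sr_ne hj, mul_zero]
    · intro hi
      exact absurd (Finset.mem_univ i) hi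
  have hF3 : Fn ω (sr i + sr i) = 2 * ω i := by
    have e1 : (sr i + sr i : Fin 4 → ℤ) = sr i - (0 - sr i) := by abel
    have e2 : Fn ω (0 : Fin 4 → ℤ) = 0 := by
      unfold Fn
      simp
    rw [e1, hF1, hF1, e2, hF2]
    ring
  rw [hF1, h4, Fn_gam, hF2, hF3] at h8
  exact h8

end Cfsg.Agent.H129.Q2
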